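import Cfsg.Agent.H514.K547.Defs
import Cfsg.Agent.Blocks.ExistsModular

/-!
# S4547, section [A]: ranks (helper396)

* `Rk n P ↔ 2 ^ n ≤ |Hom (P, ±1)|`, `|Hom (P, ±1)|` is a power of two, for 2-groups it is the index of the Frattini
  subgroup;
* `D3` along isomorphisms, subgroups of odd index and quotients;
* the good characters of a 2-group.
-/

set_option autoImplicit false

namespace Cfsg.Agent.H396.K547

open Cfsg Subgroup Cfsg.Agent.H601.K4 Cfsg.Agent.H821.K547 Cfsg.Agent.H514.K547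

universe u v

/-! ### homomorphisms to `±1` -/

theorem units_sq (u : ℤˣ) : u ^ 2 = 1 := Int.units_sq u

instance finite_hom {P : Type u} [Group P] [Finite P] : Finite (P →* ℤˣ) :=
  Finite.of_injective (fun f : P →* ℤˣ => (f : P → ℤˣ)) DFunLike.coe_injective

/-- along a surjection whose kernel is killed -/
theorem card_hom_of_surj {P : Type u} {Q : Type v} [Group P] [Group Q] (f : P →* Q) (hf : Function.Surjective f)
    (hk : ∀ (χ : P →* ℤˣ) (x : P), f x = 1 → χ x = 1) : Nat.card (Q →* ℤˣ) = Nat.card (P →* ℤˣ) := by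
  refine Nat.card_congr (Equiv.ofBijective (fun χ : Q →* ℤˣ => χ.comp f) ⟨?_, ?_⟩)
  · intro χ ψ h
    exact (MonoidHom.cancel_right hf).1 h
  · intro χ
    refine ⟨f.liftOfSurjective hf ⟨χ, fun x hx => hk χ x hx⟩, ?_⟩
    exact MonoidHom.liftOfRightInverse_comp f _ _ ⟨χ, fun x hx => hk χ x hx⟩

theorem card_hom_le {P : Type u} {Q : Type v} [Group P] [Group Q] [Finite P] (f : P →* Q)
    (hf : Function.Surjective f) : Nat.card (Q →* ℤˣ) ≤ Nat.card (P →* ℤˣ) :=
  Nat.card_le_card_of_injective (fun χ : Q →* ℤˣ => χ.comp f) fun _ _ h => (MonoidHom.cancel_right hf).1 h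

theorem card_hom_lt {P : Type u} {Q : Type v} [Group P] [Group Q] [Finite P] (f : P →* Q)
    (hf : Function.Surjective f) (χ : P →* ℤˣ) (x : P) (hx : f x = 1) (hχ : χ x ≠ 1) :
    Nat.card (Q →* ℤˣ) < Nat.card (P →* ℤˣ) := by
  refine lt_of_le_of_ne (card_hom_le f hf) fun he => ?_
  have hinj : Function.Injective (fun χ : Q →* ℤˣ => χ.comp f) := fun _ _ h => (MonoidHom.cancel_right hf).1 h
  have hQ : Finite Q := Finite.of_surjective f hf
  have hb : Function.Bijective (fun χ : Q →* ℤˣ => χ.comp f) :=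
    (Nat.bijective_iff_injective_and_card _).2 ⟨hinj, he⟩
  obtain ⟨ψ, hψ⟩ := hb.2 χ
  apply hχ
  rw [← hψ]
  show ψ (f x) = 1
  rw [hx, map_one]

theorem card_hom_congr {P : Type u} {Q : Type v} [Group P] [Group Q] (e : P ≃* Q) :
    Nat.card (P →* ℤˣ) = Nat.card (Q →* ℤˣ) :=
  (card_hom_of_surj e.toMonoidHom e.surjective fun χ x hx => by
    have h1 : e x = 1 := hx
    rw [(MulEquiv.map_eq_one_iff e).1 h1, map_one]).symm

/-- enough roots of unity -/
theorem enough {n : ℕ} (hn : n ∣ 2) : HasEnoughRootsOfUnity ℤ n := by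
  have h2 : HasEnoughRootsOfUnity ℤ 2 := ⟨⟨-1, by
    have := IsPrimitiveRoot.neg_one (R := ℤ) 0 (by decide)
    exact this⟩, inferInstance⟩
  have : NeZero (2 : ℕ) := ⟨by decide⟩
  exact HasEnoughRootsOfUnity.of_dvd ℤ hn

theorem card_dual {V : Type u} [CommGroup V] [Finite V] (h : ∀ v : V, v ^ 2 = 1) :
    Nat.card (V →* ℤˣ) = Nat.card V := by
  have := enough (n := Monoid.exponent V) (Monoid.exponent_dvd_of_forall_pow_eq_one h)
  exact CommGroup.card_monoidHom_of_hasEnoughRootsOfUnity V ℤ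

theorem exists_ne_one {V : Type u} [CommGroup V] [Finite V] (h : ∀ v : V, v ^ 2 = 1) {a : V} (ha : a ≠ 1) :
    ∃ χ : V →* ℤˣ, χ a ≠ 1 := by
  have := enough (n := Monoid.exponent V) (Monoid.exponent_dvd_of_forall_pow_eq_one h)
  exact CommGroup.exists_apply_ne_one_of_hasEnoughRootsOfUnity V ℤ ha

/-- an elementary abelian group of order `2 ^ m` maps onto `(Z / 2) ^ n` for `n ≤ m` -/
theorem exists_surj {V : Type u} [CommGroup V] [Finite V] (h : ∀ v : V, v ^ 2 = 1) {n : ℕ}
    (hn : 2 ^ n ≤ Nat.card V) : ∃ f : V →* Multiplicative (Fin n → ZMod 2), Function.Surjective f := by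
  let _ : Module (ZMod 2) (Additive V) := AddCommGroup.zmodModule (n := 2) (fun x => h x.toMul)
  have : Module.Finite (ZMod 2) (Additive V) := Module.Finite.of_finite
  have hfin : Fintype (Additive V) := Fintype.ofFinite _
  have hcard : Nat.card V = 2 ^ Module.finrank (ZMod 2) (Additive V) := by
    have h1 := Module.natCard_eq_pow_finrank (K := ZMod 2) (V := Additive V)
    rwa [Nat.card_zmod] at h1
  rw [hcard] at hn
  have hle := (Nat.pow_le_pow_iff_right (by decide : 1 < 2)).1 hn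
  let b := Module.finBasis (ZMod 2) (Additive V)
  let g : Additive V →ₗ[ZMod 2] (Fin n → ZMod 2) :=
    (LinearMap.funLeft (ZMod 2) (ZMod 2) (Fin.castLE hle)) ∘ₗ (b.equivFun : Additive V →ₗ[ZMod 2] _)
  have hg : Function.Surjective g := by
    have h1 := LinearMap.funLeft_surjective_of_injective (ZMod 2) (ZMod 2) (Fin.castLE hle)
      (Fin.castLE_injective hle)
    exact h1.comp b.equivFun.surjective
  exact ⟨AddMonoidHom.toMultiplicativeRight g.toAddMonoidHom, fun y => by
    obtain ⟨x, hx⟩ := hg y.toAdd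
    exact ⟨x.toMul, congrArg Multiplicative.ofAdd hx⟩⟩

section quot

variable (P : Type u) [Group P]

/-- the intersection of the kernels -/
def KK : Subgroup P := ⨅ χ : P →* ℤˣ, χ.ker

theorem mem_KK {x : P} : x ∈ KK P ↔ ∀ χ : P →* ℤˣ, χ x = 1 := by
  simp only [KK, Subgroup.mem_iInf, MonoidHom.mem_ker]

instance KK_normal : (KK P).Normal := by
  refine ⟨fun x hx g => ?_⟩
  rw [mem_KK] at hx ⊢
  intro χ
  rw [map_mul, map_mul, hx χ, mul_one, ← map_mul, mul_inv_cancel, map_one]

instance KK_comm : CommGroup (P ⧸ KK P) :=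
  { (inferInstance : Group (P ⧸ KK P)) with
    mul_comm := fun a b => by
      obtain ⟨x, rfl⟩ := QuotientGroup.mk_surjective a
      obtain ⟨y, rfl⟩ := QuotientGroup.mk_surjective b
      rw [← QuotientGroup.mk_mul, ← QuotientGroup.mk_mul, QuotientGroup.eq, mem_KK]
      intro χ
      rw [map_mul, map_inv, map_mul, map_mul, mul_comm (χ x), inv_mul_cancel] }

theorem KK_sq (v : P ⧸ KK P) : v ^ 2 = 1 := by
  obtain ⟨x, rfl⟩ := QuotientGroup.mk_surjective v
  rw [← QuotientGroup.mk_pow, QuotientGroup.eq_one_iff, mem_KK]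
  intro χ
  rw [map_pow, units_sq]

theorem KK_card [Finite P] : Nat.card (P →* ℤˣ) = Nat.card (P ⧸ KK P) := by
  rw [← card_dual (KK_sq P)]
  exact (card_hom_of_surj (QuotientGroup.mk' (KK P)) (QuotientGroup.mk'_surjective _) fun χ x hx =>
    (mem_KK P).1 ((QuotientGroup.eq_one_iff x).1 hx) χ).symm

end quot

/-! ### the statements -/

variable {G : Type u} [Group G] [Finite G]

theorem rk_iff {P : Type u} [Group P] [Finite P] (n : ℕ) : Rk n P ↔ 2 ^ n ≤ Nat.card (P →* ℤˣ) := by
  constructor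
  · rintro ⟨f, hf⟩
    have h1 := card_hom_le f hf
    have h2 : Nat.card (Multiplicative (Fin n → ZMod 2) →* ℤˣ) = 2 ^ n := by
      rw [card_dual]
      · rw [Nat.card_congr (Multiplicative.toAdd), Nat.card_fun, Nat.card_zmod, Nat.card_fin]
      · intro v
        apply Multiplicative.toAdd.injective
        funext i
        rw [toAdd_pow]
        show 2 • (v.toAdd i) = 0
        generalize v.toAdd i = z
        revert z
        decide
    rwa [h2] at h1
  · intro h
    rw [KK_card] at h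
    obtain ⟨f, hf⟩ := exists_surj (KK_sq P) h
    exact ⟨f.comp (QuotientGroup.mk' (KK P)), hf.comp (QuotientGroup.mk'_surjective _)⟩

theorem card_hom_pow {P : Type u} [Group P] [Finite P] : ∃ n : ℕ, Nat.card (P →* ℤˣ) = 2 ^ n := by
  have := H618.Resid.fact_two
  have h : IsPGroup 2 (P →* ℤˣ) := fun χ => ⟨1, by
    ext x
    rw [MonoidHom.pow_apply, pow_one, units_sq, MonoidHom.one_apply]⟩
  exact h.exists_card_eq

theorem apply_frattini {P : Type u} [Group P] [Finite P] (χ : P →* ℤˣ) {x : P}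
    (hx : x ∈ frattini P) : χ x = 1 := by
  have := H618.Resid.fact_two
  have hker : frattini P ≤ χ.ker := by
    refine Cfsg.Agent.Lib.FrattiniPGroup.frattini_le (p := 2) χ.ker ?_ ?_
    · intro x y
      rw [MonoidHom.mem_ker, map_commutatorElement]
      exact commutatorElement_eq_one_iff_mul_comm.2 (mul_comm _ _)
    · intro x
      rw [MonoidHom.mem_ker, map_pow, units_sq]
  exact hker hx

/-- `KK P` is the Frattini subgroup -/
theorem KK_eq_frattini {P : Type u} [Group P] [Finite P] (hP : IsPGroup 2 P) : KK P = frattini P := by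
  have := H618.Resid.fact_two
  apply le_antisymm
  · rw [frattini, Order.radical]
    refine le_iInf fun M => le_iInf fun hM => ?_
    have hn : M.Normal := Cfsg.Agent.Lib.FrattiniPGroup.normal_of_coatom hP hM
    have hi := Cfsg.Agent.Lib.FrattiniPGroup.index_of_coatom hP hM
    have hc : IsCyclic (P ⧸ M) := isCyclic_of_prime_card (p := 2) hi
    let _ : CommGroup (P ⧸ M) := hc.commGroup
    have hsq : ∀ v : P ⧸ M, v ^ 2 = 1 := fun v => by
      have h1 : v ^ Nat.card (P ⧸ M) = 1 := pow_card_eq_one'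
      have h2 : Nat.card (P ⧸ M) = 2 := hi
      rwa [h2] at h1
    intro x hx
    by_contra hxM
    have h1 : (QuotientGroup.mk x : P ⧸ M) ≠ 1 := fun h => hxM ((QuotientGroup.eq_one_iff x).1 h)
    obtain ⟨χ, hχ⟩ := exists_ne_one hsq h1
    exact hχ ((mem_KK P).1 hx (χ.comp (QuotientGroup.mk' M)))
  · intro x hx
    exact (mem_KK P).2 fun χ => apply_frattini χ hx

theorem card_hom_frattini {P : Type u} [Group P] [Finite P] (hP : IsPGroup 2 P) :
    Nat.card (P →* ℤˣ) = (frattini P).index := by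
  rw [KK_card, ← KK_eq_frattini hP]
  rfl

theorem eight_le {m n : ℕ} (h : m = 2 ^ n) : 2 ^ 3 ≤ m ↔ 5 ≤ m := by
  constructor
  · intro h1
    omega
  · intro h1
    rw [h] at h1 ⊢
    by_contra h2
    have h3 : n < 3 := by
      by_contra h4
      exact h2 (Nat.pow_le_pow_right (by decide) (by omega))
    interval_cases n <;> omega

theorem d3_iff (P : Sylow 2 G) : D3 G ↔ 5 ≤ Nat.card (↥P →* ℤˣ) := by
  have := H618.Resid.fact_two
  obtain ⟨n, hn⟩ := card_hom_pow (P := (P : Subgroup G))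
  have h1 : Rk 3 (P : Subgroup G) ↔ 5 ≤ Nat.card (↥P →* ℤˣ) := (rk_iff 3).trans (eight_le hn)
  rw [← h1]
  constructor
  · intro h
    exact h P
  · intro h Q
    rw [rk_iff] at h ⊢
    rwa [← card_hom_congr (Sylow.equiv P Q)]

theorem d3_of_hom {H : Type v} [Group H] [Finite H] {G : Type u} [Group G] [Finite G] (P : Sylow 2 G)
    (Q : Sylow 2 H) (h : Nat.card (↥P →* ℤˣ) = Nat.card (↥Q →* ℤˣ)) : D3 G ↔ D3 H := by
  rw [d3_iff P, d3_iff Q, h]

theorem d3_congr {H : Type u} [Group H] (e : G ≃* H) : D3 G ↔ D3 H := by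
  have := H618.Resid.fact_two
  have : Finite H := Finite.of_equiv G e.toEquiv
  let P : Sylow 2 G := default
  let Q : Sylow 2 H := P.mapSurjective (f := e.toMonoidHom) e.surjective
  refine d3_of_hom P Q ?_
  exact card_hom_congr ((P : Subgroup G).equivMapOfInjective e.toMonoidHom e.injective)

/-- a subgroup of odd index -/
theorem d3_odd (H : Subgroup G) (h : ¬ 2 ∣ H.index) : D3 H ↔ D3 G := by
  have := H618.Resid.fact_two
  let P : Sylow 2 H := default
  have hcard : Nat.card ((P : Subgroup H).map H.subtype) = 2 ^ (Nat.card G).factorization 2 := by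
    rw [Subgroup.card_map_of_injective H.subtype_injective, Sylow.card_eq_multiplicity P]
    congr 1
    rw [← H.card_mul_index, Nat.factorization_mul Nat.card_pos.ne' (by
      intro h0
      rw [h0] at h
      exact h (dvd_zero _))]
    rw [Finsupp.add_apply, Nat.factorization_eq_zero_of_not_dvd h, add_zero]
  let Q : Sylow 2 G := Sylow.ofCard _ hcard
  refine d3_of_hom P Q ?_
  exact card_hom_congr ((P : Subgroup H).equivMapOfInjective H.subtype H.subtype_injective)

/-- the image of a Sylow subgroup in a quotient -/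
theorem exists_map (P : Sylow 2 G) (N : Subgroup G) [N.Normal] :
    ∃ (Q : Sylow 2 (G ⧸ N)) (f : ↥P →* ↥Q), Function.Surjective f ∧ ∀ x : P, f x = 1 ↔ (x : G) ∈ N := by
  have := H618.Resid.fact_two
  let Q : Sylow 2 (G ⧸ N) := P.mapSurjective (f := QuotientGroup.mk' N) (QuotientGroup.mk'_surjective N)
  refine ⟨Q, (QuotientGroup.mk' N).subgroupMap (P : Subgroup G),
    (QuotientGroup.mk' N).subgroupMap_surjective (P : Subgroup G), fun x => ?_⟩
  rw [← QuotientGroup.eq_one_iff (N := N) (x : G)]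
  constructor
  · intro h
    exact congrArg Subtype.val h
  · intro h
    exact Subtype.ext h

/-- a normal subgroup of odd order -/
theorem d3_quot_odd (N : Subgroup G) [N.Normal] (h : ¬ 2 ∣ Nat.card N) : D3 (G ⧸ N) ↔ D3 G := by
  have := H618.Resid.fact_two
  let P : Sylow 2 G := default
  obtain ⟨Q, f, hf, hk⟩ := exists_map P N
  refine d3_of_hom Q P (card_hom_of_surj f hf fun χ x hx => ?_)
  have h1 : (x : G) ∈ N := (hk x).1 hx
  obtain ⟨k, hk⟩ := P.isPGroup' x
  have h2 : (x : G) ^ 2 ^ k = 1 := congrArg Subtype.val hk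
  have h3 : orderOf (x : G) ∣ 2 ^ k := orderOf_dvd_of_pow_eq_one h2
  have h4 : orderOf (x : G) ∣ Nat.card N := by
    have := orderOf_dvd_natCard (⟨(x : G), h1⟩ : N)
    rwa [← Subgroup.orderOf_coe] at this
  have h5 : Nat.Coprime (2 ^ k) (Nat.card N) := Nat.Coprime.pow_left k ((Nat.Prime.coprime_iff_not_dvd
    Nat.prime_two).2 h)
  have h6 : orderOf (x : G) = 1 := Nat.eq_one_of_dvd_coprimes h5 h3 h4
  have h7 : x = 1 := Subtype.ext (orderOf_eq_one_iff.1 h6)
  rw [h7, map_one]

theorem d3_quot_frattini (P : Sylow 2 G) (N : Subgroup G) [N.Normal]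
    (h : N ≤ (frattini ↥P).map (P : Subgroup G).subtype) : D3 (G ⧸ N) ↔ D3 G := by
  obtain ⟨Q, f, hf, hk⟩ := exists_map P N
  refine d3_of_hom Q P (card_hom_of_surj f hf fun χ x hx => ?_)
  obtain ⟨y, hy, hyx⟩ := h ((hk x).1 hx)
  have h1 : y = x := Subtype.ext hyx
  rw [h1] at hy
  exact apply_frattini χ hy

/-- if `P / (P ∩ N)` is not cyclic and `P ∩ N` is not in the Frattini subgroup -/
theorem d3_of_quot (P : Sylow 2 G) (N : Subgroup G) [N.Normal]
    (h : ¬ N ⊓ (P : Subgroup G) ≤ (frattini ↥P).map (P : Subgroup G).subtype)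
    (hc : ∀ Q : Sylow 2 (G ⧸ N), ¬ IsCyclic ↥Q) : D3 G := by
  have := H618.Resid.fact_two
  obtain ⟨Q, f, hf, hk⟩ := exists_map P N
  obtain ⟨x, ⟨hxN, hxP⟩, hxΦ⟩ := SetLike.not_le_iff_exists.1 h
  have h1 : (⟨x, hxP⟩ : (P : Subgroup G)) ∉ KK (P : Subgroup G) := by
    rw [KK_eq_frattini P.isPGroup']
    intro h2
    exact hxΦ ⟨⟨x, hxP⟩, h2, rfl⟩
  rw [mem_KK] at h1
  push Not at h1
  obtain ⟨χ, hχ⟩ := h1
  have h2 := card_hom_lt f hf χ ⟨x, hxP⟩ ((hk _).2 hxN) hχ
  rw [d3_iff P]
  have h3 : 4 ≤ Nat.card (↥Q →* ℤˣ) := by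
    obtain ⟨n, hn⟩ : ∃ n : ℕ, Nat.card (↥Q →* ℤˣ) = 2 ^ n := card_hom_pow (P := (Q : Subgroup (G ⧸ N)))
    by_contra h4
    have h5 : n < 2 := by
      by_contra h6
      apply h4
      rw [hn]
      exact (by decide : 4 ≤ 2 ^ 2).trans (Nat.pow_le_pow_right (by decide) (by omega))
    have h6 : Nat.card (↥Q →* ℤˣ) = (frattini (Q : Subgroup (G ⧸ N))).index := card_hom_frattini Q.isPGroup'
    rw [hn] at h6
    interval_cases n
    · apply hc Q
      have h7 : frattini (Q : Subgroup (G ⧸ N)) = ⊤ := Subgroup.index_eq_one.1 h6.symm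
      have h8 := frattini_nongenerating (G := (Q : Subgroup (G ⧸ N))) (K := ⊥) (by rw [h7]; exact sup_top_eq _)
      have h9 : Nat.card (Q : Subgroup (G ⧸ N)) = 1 := by
        rw [← Subgroup.card_top (G := (Q : Subgroup (G ⧸ N))), ← h8, Subgroup.card_bot]
      have : Subsingleton (Q : Subgroup (G ⧸ N)) := (Nat.card_eq_one_iff_unique.1 h9).1
      infer_instance
    · exact hc Q (H618.Complement.isCyclic_of_frattini h6.symm)
  omega

/-! ### the good characters of a 2-group -/

theorem good_hom {P : Type u} [Group P] [Finite P] (χ : P →* ℤˣ) : Good (fun x => ((χ x : ℤ) : ℂ)) := by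
  have h1 : (fun x => ((χ x : ℤ) : ℂ)) = fun x => (((Units.map (Int.castRingHom ℂ : ℤ →* ℂ)).comp χ x : ℂˣ) : ℂ) := by
    funext x
    rfl
  have h2 : IsIrrCharacter P (fun x => ((χ x : ℤ) : ℂ)) := by
    rw [h1]
    exact Cfsg.Agent.Characters.Linear.isIrrCharacter_hom _
  refine H740.K4.good_of_rat h2 (fun g => ⟨((χ g : ℤ) : ℚ), by push_cast; rfl⟩) ?_
  unfold charDegree
  simp

/-- good characters of a 2-group -/
theorem fg_pgroup {P : Type u} [Group P] [Finite P] (hP : IsPGroup 2 P) : fg P = Nat.card (P →* ℤˣ) := by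
  classical
  have := H618.Resid.fact_two
  apply le_antisymm
  · obtain ⟨M, hM⟩ := Cfsg.Agent.Blocks.ExistsModular.exists_isPModular Nat.prime_two
    obtain ⟨k, hk⟩ := H740.K4.exists_cube P
    let T : Sylow 2 P := ⟨⊤, hP.to_subgroup ⊤, fun _ h => top_le_iff.1 h⟩
    have hc : HasNormalPComplement 2 P := ⟨T, ⊥, inferInstance, Subgroup.isComplement'_bot_top⟩
    have h1 := H618.Complement.card_fixed_of_complement hM hk hc T
    have h2 : (frattini (T : Subgroup P)).index = Nat.card (P →* ℤˣ) := by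
      rw [← card_hom_frattini T.isPGroup']
      exact card_hom_congr Subgroup.topEquiv
    rw [h2] at h1
    rw [← h1]
    have : Finite (IrrCharacter P) := Cfsg.Agent.Characters.Core.finite_irr
    refine Nat.card_le_card_of_injective (fun χ : gs P => ⟨⟨χ.1, χ.2.odd.1⟩, χ.2.b0 M hM _, ?_, fun g => ?_⟩) ?_
    · exact Nat.not_even_iff_odd.1 fun h => χ.2.odd.2 h.two_dvd
    · exact χ.2.sig k hk.two hk.odd g
    · intro χ ψ h
      exact Subtype.ext (congrArg (fun x => ((x : {χ : IrrCharacter P // _}).1 : P → ℂ)) h)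
  · have : Finite (gs P) := gs_finite P
    refine Nat.card_le_card_of_injective (fun χ : P →* ℤˣ => (⟨_, good_hom χ⟩ : gs P)) fun χ ψ h => ?_
    ext x
    have h1 := congrFun (congrArg Subtype.val h) x
    have h2 : ((χ x : ℤ) : ℂ) = ((ψ x : ℤ) : ℂ) := h1
    exact_mod_cast h2

end Cfsg.Agent.H396.K547
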